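import Mathlib

/-!
# An element of order 13 in dimension 4 over the field with 16 elements (helper279)

`comm` : its centralizer is commutative; `roots` : at most three of its powers are zeros of a cubic polynomial on the
range of `X - 1`; `card_N_le` : the normalizer of `⟨x⟩` is at most three times its centralizer.
-/

set_option autoImplicit false

open Module Polynomial

namespace Cfsg.Agent.H279.Sq.UFour

section lin

variable {F : Type*} [Field F] [Fintype F] {V : Type*} [AddCommGroup V] [Module F V] [Finite V]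

theorem card_sub (hF : Fintype.card F = 16) (W : Submodule F V) : Nat.card W = 16 ^ finrank F W := by
  have : Fintype W := Fintype.ofFinite W
  rw [Nat.card_eq_fintype_card, Module.card_eq_pow_finrank (K := F) (V := W), hF]

/-- the fixed vectors in an invariant subspace -/
theorem card_modEq (hF : Fintype.card F = 16) (X : Module.End F V) (h13 : X ^ 13 = 1) (W : Submodule F V)
    (hW : ∀ w ∈ W, X w ∈ W) :
    16 ^ finrank F W ≡ 16 ^ finrank F (W ⊓ LinearMap.ker (X - 1) : Submodule F V) [MOD 13] := by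
  classical
  have : Fintype W := Fintype.ofFinite W
  have : Fact (Nat.Prime 13) := ⟨by norm_num⟩
  let f : Function.End W := fun w => ⟨X w, hW w w.2⟩
  have hf : ∀ (n : ℕ) (w : W), (((f ^ n) w : W) : V) = (X ^ n) w := by
    intro n
    induction n with
    | zero => intro w; rfl
    | succ n ih =>
      intro w
      rw [pow_succ, pow_succ]
      change (((f ^ n) (f w) : W) : V) = (X ^ n) (X w)
      rw [ih]
  have hf13 : f ^ 13 ^ 1 = 1 := by
    funext w
    apply Subtype.ext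
    rw [pow_one, hf, h13]; rfl
  have h1 := Equiv.Perm.card_fixedPoints_modEq hf13
  have e1 : Fintype.card W = 16 ^ finrank F W := by rw [← card_sub hF W, Nat.card_eq_fintype_card]
  have e2 : Fintype.card (Function.fixedPoints f) = 16 ^ finrank F (W ⊓ LinearMap.ker (X - 1) : Submodule F V) := by
    rw [← card_sub hF, ← Nat.card_eq_fintype_card]
    refine Nat.card_congr ⟨fun w => ⟨w.1, w.1.2, ?_⟩, fun w => ⟨⟨w.1, w.2.1⟩, ?_⟩, fun w => rfl, fun w => rfl⟩
    · have h2 : f w.1 = w.1 := w.2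
      have h3 := congrArg Subtype.val h2
      change X (w.1 : V) = w.1 at h3
      change (w.1 : V) ∈ LinearMap.ker (X - 1)
      rw [LinearMap.mem_ker, LinearMap.sub_apply, h3]
      exact sub_self _
    · apply Subtype.ext
      have h2 := w.2.2
      rw [SetLike.mem_coe, LinearMap.mem_ker, LinearMap.sub_apply] at h2
      exact sub_eq_zero.1 h2
  rwa [e1, e2] at h1

variable {X : Module.End F V}

theorem finrank_ker (hF : Fintype.card F = 16) (hV : finrank F V = 4) (h13 : X ^ 13 = 1) (h1 : X ≠ 1) :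
    finrank F (LinearMap.ker (X - 1)) = 1 := by
  have h2 := card_modEq hF X h13 ⊤ (fun _ _ => trivial)
  rw [top_inf_eq, finrank_top, hV] at h2
  have h3 : finrank F (LinearMap.ker (X - 1)) ≤ 4 := by rw [← hV]; exact Submodule.finrank_le _
  have h4 : finrank F (LinearMap.ker (X - 1)) ≠ 4 := by
    intro h
    have h5 : LinearMap.ker (X - 1) = ⊤ := Submodule.eq_top_of_finrank_eq (by rw [h, hV])
    exact h1 (sub_eq_zero.1 (LinearMap.ker_eq_top.1 h5))
  generalize finrank F (LinearMap.ker (X - 1)) = d at *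
  unfold Nat.ModEq at h2
  interval_cases d
  all_goals first | rfl | (exfalso; revert h2 h4; decide)

theorem finrank_range (hF : Fintype.card F = 16) (hV : finrank F V = 4) (h13 : X ^ 13 = 1) (h1 : X ≠ 1) :
    finrank F (LinearMap.range (X - 1)) = 3 := by
  have h2 := LinearMap.finrank_range_add_finrank_ker (X - 1)
  rw [finrank_ker hF hV h13 h1, hV] at h2
  omega

theorem pow_apply_eq {n : ℕ} {v : V} (h : X v = v) : (X ^ n) v = v := by
  induction n with
  | zero => rfl
  | succ n ih =>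
    rw [pow_succ]
    change (X ^ n) (X v) = v
    rw [h, ih]

theorem disj (hF : Fintype.card F = 16) (h13 : X ^ 13 = 1) {v : V} (h1 : v ∈ LinearMap.range (X - 1))
    (h2 : X v = v) : v = 0 := by
  obtain ⟨u, rfl⟩ := h1
  have h3 : (∑ i ∈ Finset.range 13, X ^ i) * (X - 1) = 0 := by
    rw [geom_sum_mul, h13, sub_self]
  have h4 : (∑ i ∈ Finset.range 13, X ^ i) ((X - 1) u) = (13 : ℕ) • ((X - 1) u) := by
    rw [LinearMap.sum_apply, Finset.sum_congr rfl fun i _ => pow_apply_eq h2, Finset.sum_const, Finset.card_range]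
  have h5 : (∑ i ∈ Finset.range 13, X ^ i) ((X - 1) u) = 0 := by
    have := LinearMap.congr_fun h3 u
    exact this
  rw [h5] at h4
  generalize (X - 1) u = w at *
  have h6 : (16 : ℕ) • w = 0 := by
    have h7 : ((Fintype.card F : ℕ) : F) = 0 := FiniteField.cast_card_eq_zero F
    rw [hF] at h7
    rw [← Nat.cast_smul_eq_nsmul F, h7, zero_smul]
  have h8 : (13 * 5 : ℕ) • w = 0 := by rw [mul_nsmul, ← h4, smul_zero]
  have h9 : (16 * 4 : ℕ) • w = 0 := by rw [mul_nsmul, h6, smul_zero]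
  have h10 : (16 * 4 + 1 : ℕ) • w = 0 := h8
  rwa [add_nsmul, h9, zero_add, one_nsmul] at h10

theorem sub_eq (hF : Fintype.card F = 16) (hV : finrank F V = 4) (h13 : X ^ 13 = 1) (h1 : X ≠ 1)
    {W : Submodule F V} (hW : ∀ w ∈ W, X w ∈ W) (hWX : W ≤ LinearMap.range (X - 1)) (h0 : W ≠ ⊥) :
    W = LinearMap.range (X - 1) := by
  have h2 := card_modEq hF X h13 W hW
  have h3 : W ⊓ LinearMap.ker (X - 1) = ⊥ := by
    rw [eq_bot_iff]
    rintro w ⟨hw, hw'⟩
    rw [SetLike.mem_coe, LinearMap.mem_ker, LinearMap.sub_apply] at hw'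
    exact disj hF h13 (hWX hw) (sub_eq_zero.1 hw')
  rw [h3, finrank_bot, pow_zero] at h2
  have h4 : finrank F W ≤ 3 := by
    rw [← finrank_range hF hV h13 h1]
    exact Submodule.finrank_mono hWX
  have h5 : finrank F W ≠ 0 := fun h => h0 (Submodule.finrank_eq_zero.1 h)
  apply Submodule.eq_of_le_of_finrank_eq hWX
  rw [finrank_range hF hV h13 h1]
  generalize finrank F W = d at *
  unfold Nat.ModEq at h2
  interval_cases d
  all_goals first | rfl | (exfalso; revert h2 h5; decide)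

theorem comm_aeval {Y : Module.End F V} (h : Y * X = X * Y) (a : F[X]) : Y * aeval X a = aeval X a * Y := by
  have h1 : Commute Y X := h
  exact (Polynomial.induction_on a (fun c => by
    rw [aeval_C]; exact (Algebra.commutes c Y).symm) (fun p q hp hq => by
    rw [map_add]; exact Commute.add_right hp hq) (fun n c _ => by
    rw [map_mul, map_pow, aeval_X, aeval_C]
    exact Commute.mul_right (Algebra.commutes c Y).symm (h1.pow_right _)) : Commute Y (aeval X a))

theorem aeval_comm (a b : F[X]) (v : V) : aeval X a (aeval X b v) = aeval X b (aeval X a v) := by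
  have h : aeval X a * aeval X b = aeval X b * aeval X a := by rw [← map_mul, ← map_mul, mul_comm]
  exact LinearMap.congr_fun h v

theorem aeval_mem (a : F[X]) {v : V} (hv : v ∈ LinearMap.range (X - 1)) : aeval X a v ∈ LinearMap.range (X - 1) := by
  obtain ⟨u, rfl⟩ := hv
  refine ⟨aeval X a u, ?_⟩
  have h := aeval_comm (X := X) a (Polynomial.X - 1) u
  rw [map_sub, map_one, aeval_X] at h
  exact h.symm

/-- the range of `X - 1` is generated by every nonzero vector -/
theorem cyclic (hF : Fintype.card F = 16) (hV : finrank F V = 4) (h13 : X ^ 13 = 1) (h1 : X ≠ 1) {v₀ : V}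
    (hv : v₀ ∈ LinearMap.range (X - 1)) (h0 : v₀ ≠ 0) {w : V} (hw : w ∈ LinearMap.range (X - 1)) :
    ∃ a : F[X], aeval X a v₀ = w := by
  let L : F[X] →ₗ[F] V :=
    { toFun := fun a => aeval X a v₀
      map_add' := fun a b => by rw [map_add]; rfl
      map_smul' := fun c a => by rw [map_smul]; rfl }
  have hL : LinearMap.range L = LinearMap.range (X - 1) := by
    refine sub_eq hF hV h13 h1 ?_ ?_ ?_
    · rintro _ ⟨a, rfl⟩
      refine ⟨Polynomial.X * a, ?_⟩
      change aeval X (Polynomial.X * a) v₀ = X (aeval X a v₀)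
      rw [map_mul, aeval_X]; rfl
    · rintro _ ⟨a, rfl⟩
      exact aeval_mem a hv
    · intro h
      apply h0
      have h2 : v₀ ∈ LinearMap.range L := ⟨1, by
        change aeval X (1 : F[X]) v₀ = v₀
        rw [map_one]; rfl⟩
      rw [h] at h2
      exact (Submodule.mem_bot F).1 h2
  rw [← hL] at hw
  exact hw

theorem exists_gen (hF : Fintype.card F = 16) (hV : finrank F V = 4) (h13 : X ^ 13 = 1) (h1 : X ≠ 1) :
    ∃ v₀ ∈ LinearMap.range (X - 1), v₀ ≠ 0 := by
  have h2 : LinearMap.range (X - 1) ≠ ⊥ := by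
    intro h
    have h3 := finrank_range hF hV h13 h1
    rw [h, finrank_bot] at h3
    omega
  obtain ⟨v, hv, hv0⟩ := Submodule.exists_mem_ne_zero_of_ne_bot h2
  exact ⟨v, hv, hv0⟩

theorem sup_eq (hF : Fintype.card F = 16) (hV : finrank F V = 4) (h13 : X ^ 13 = 1) (h1 : X ≠ 1) :
    LinearMap.ker (X - 1) ⊔ LinearMap.range (X - 1) = ⊤ := by
  apply Submodule.eq_top_of_finrank_eq
  have h2 := Submodule.finrank_sup_add_finrank_inf_eq (LinearMap.ker (X - 1)) (LinearMap.range (X - 1))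
  have h3 : LinearMap.ker (X - 1) ⊓ LinearMap.range (X - 1) = ⊥ := by
    rw [eq_bot_iff]
    rintro w ⟨hw, hw'⟩
    rw [SetLike.mem_coe, LinearMap.mem_ker, LinearMap.sub_apply] at hw
    exact disj hF h13 hw' (sub_eq_zero.1 hw)
  rw [h3, finrank_bot, finrank_ker hF hV h13 h1, finrank_range hF hV h13 h1] at h2
  omega

/-- **the centralizer is commutative** -/
theorem comm (hF : Fintype.card F = 16) (hV : finrank F V = 4) (h13 : X ^ 13 = 1) (h1 : X ≠ 1)
    {Y Z : Module.End F V} (hY : Y * X = X * Y) (hZ : Z * X = X * Z) : Y * Z = Z * Y := by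
  obtain ⟨v₀, hv₀, h0⟩ := exists_gen hF hV h13 h1
  have hmem : ∀ {Y : Module.End F V}, Y * X = X * Y → Y v₀ ∈ LinearMap.range (X - 1) := by
    intro Y hY
    obtain ⟨u, rfl⟩ := hv₀
    refine ⟨Y u, ?_⟩
    have h2 : (X - 1) * Y = Y * (X - 1) := by rw [sub_mul, mul_sub, one_mul, mul_one, hY]
    exact LinearMap.congr_fun h2 u
  obtain ⟨a, ha⟩ := cyclic hF hV h13 h1 hv₀ h0 (hmem hY)
  obtain ⟨b, hb⟩ := cyclic hF hV h13 h1 hv₀ h0 (hmem hZ)
  have hle : LinearMap.ker (X - 1) ⊔ LinearMap.range (X - 1) ≤ LinearMap.ker (Y * Z - Z * Y) := by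
    rw [sup_le_iff]
    constructor
    · -- the fixed vectors
      obtain ⟨v₁, hv₁, hs⟩ := finrank_eq_one_iff'.1 (finrank_ker hF hV h13 h1)
      have key : ∀ {Y : Module.End F V}, Y * X = X * Y → ∃ c : F, Y v₁ = c • (v₁ : V) := by
        intro Y hY
        have h2 : Y v₁ ∈ LinearMap.ker (X - 1) := by
          have h3 : (X - 1) * Y = Y * (X - 1) := by rw [sub_mul, mul_sub, one_mul, mul_one, hY]
          have h4 := LinearMap.congr_fun h3 (v₁ : V)
          rw [LinearMap.mem_ker]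
          change (X - 1) (Y v₁) = Y ((X - 1) v₁) at h4
          rw [h4, LinearMap.mem_ker.1 v₁.2, map_zero]
        obtain ⟨c, hc⟩ := hs ⟨_, h2⟩
        exact ⟨c, (congrArg Subtype.val hc).symm⟩
      obtain ⟨y, hy⟩ := key hY
      obtain ⟨z, hz⟩ := key hZ
      intro w hw
      obtain ⟨c, hc⟩ := hs ⟨w, hw⟩
      have hc' : w = c • (v₁ : V) := (congrArg Subtype.val hc).symm
      rw [LinearMap.mem_ker, LinearMap.sub_apply]
      change Y (Z w) - Z (Y w) = 0
      rw [hc', map_smul, map_smul, map_smul, map_smul, hz, hy, map_smul, map_smul, hy, hz, smul_comm z y, sub_self]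
    · intro w hw
      obtain ⟨c, rfl⟩ := cyclic hF hV h13 h1 hv₀ h0 hw
      rw [LinearMap.mem_ker, LinearMap.sub_apply]
      change Y (Z (aeval X c v₀)) - Z (Y (aeval X c v₀)) = 0
      have e1 : ∀ {Y : Module.End F V} (hY : Y * X = X * Y) (d : F[X]) (u : V), Y (aeval X d u) = aeval X d (Y u) :=
        fun hY d u => LinearMap.congr_fun (comm_aeval hY d) u
      rw [e1 hZ, e1 hY, ← hb, e1 hY, e1 hY, e1 hZ, ← ha, e1 hZ, ← hb, aeval_comm (X := X) b a, sub_self]
  rw [sup_eq hF hV h13 h1, top_le_iff, LinearMap.ker_eq_top] at hle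
  exact sub_eq_zero.1 hle

/-! ### The powers -/

/-- a polynomial kills the range of `X - 1` -/
def Kl (X : Module.End F V) (h : F[X]) : Prop := ∀ v ∈ LinearMap.range (X - 1), aeval X h v = 0

omit [Fintype F] [Finite V] in
theorem Kl.sub {g h : F[X]} (hg : Kl X g) (hh : Kl X h) : Kl X (g - h) := fun v hv => by
  rw [map_sub, LinearMap.sub_apply, hg v hv, hh v hv, sub_self]

theorem Kl.cancel (hF : Fintype.card F = 16) (h13 : X ^ 13 = 1) {a b : ℕ} (hab : ¬ a ≡ b [MOD 13]) {h : F[X]}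
    (hk : Kl X ((Polynomial.X ^ a - Polynomial.X ^ b) * h)) : Kl X h := by
  intro v hv
  have h2 := hk v hv
  rw [map_mul, map_sub, map_pow, map_pow, aeval_X] at h2
  change (X ^ a) (aeval X h v) - (X ^ b) (aeval X h v) = 0 at h2
  rw [sub_eq_zero] at h2
  set u := aeval X h v with hu
  have hur : u ∈ LinearMap.range (X - 1) := aeval_mem h hv
  have hadd : ∀ m n : ℕ, ∀ w : V, (X ^ (m + n)) w = (X ^ m) ((X ^ n) w) := fun m n w => by rw [pow_add]; rfl
  have hp13 : ∀ m : ℕ, X ^ (13 * m) = 1 := fun m => by rw [pow_mul, h13, one_pow]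
  -- `X ^ c u = u`
  have h3 : (X ^ (12 * a + b)) u = u := by
    rw [hadd, ← h2, ← hadd, show 12 * a + a = 13 * a by ring, hp13]; rfl
  have h4 : ¬ 13 ∣ 12 * a + b := by
    intro h
    apply hab
    unfold Nat.ModEq
    omega
  have h5 : Nat.Coprime (12 * a + b) 13 := by
    rw [Nat.coprime_comm]
    exact (Nat.Prime.coprime_iff_not_dvd (by norm_num)).2 h4
  obtain ⟨m, -, hm⟩ := Nat.exists_mul_mod_eq_one_of_coprime h5 (by norm_num)
  have h6 : (X ^ ((12 * a + b) * m)) u = u := by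
    rw [pow_mul]
    exact pow_apply_eq h3
  rw [← Nat.div_add_mod ((12 * a + b) * m) 13, hm, hadd, hp13, pow_one] at h6
  exact disj hF h13 hur h6

/-- **at most three powers** -/
theorem roots (hF : Fintype.card F = 16) (hV : finrank F V = 4) (h13 : X ^ 13 = 1) (h1 : X ≠ 1) {a b c : F}
    {k₁ k₂ k₃ k₄ : ℕ} (h12 : ¬ k₁ ≡ k₂ [MOD 13]) (h13' : ¬ k₁ ≡ k₃ [MOD 13]) (h14 : ¬ k₁ ≡ k₄ [MOD 13])
    (h23 : ¬ k₂ ≡ k₃ [MOD 13]) (h24 : ¬ k₂ ≡ k₄ [MOD 13]) (h34 : ¬ k₃ ≡ k₄ [MOD 13])
    (hk : ∀ k : ℕ, k = k₁ ∨ k = k₂ ∨ k = k₃ ∨ k = k₄ →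
      Kl X ((Polynomial.X ^ k) ^ 3 + C a * (Polynomial.X ^ k) ^ 2 + C b * (Polynomial.X ^ k) + C c)) : False := by
  have f1 := hk k₁ (Or.inl rfl)
  have f2 := hk k₂ (Or.inr (Or.inl rfl))
  have f3 := hk k₃ (Or.inr (Or.inr (Or.inl rfl)))
  have f4 := hk k₄ (Or.inr (Or.inr (Or.inr rfl)))
  obtain ⟨T₁, hT₁⟩ : ∃ T : F[X], T = Polynomial.X ^ k₁ := ⟨_, rfl⟩
  obtain ⟨T₂, hT₂⟩ : ∃ T : F[X], T = Polynomial.X ^ k₂ := ⟨_, rfl⟩
  obtain ⟨T₃, hT₃⟩ : ∃ T : F[X], T = Polynomial.X ^ k₃ := ⟨_, rfl⟩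
  obtain ⟨T₄, hT₄⟩ : ∃ T : F[X], T = Polynomial.X ^ k₄ := ⟨_, rfl⟩
  rw [← hT₁] at f1
  rw [← hT₂] at f2
  rw [← hT₃] at f3
  rw [← hT₄] at f4
  have g12 : Kl X (T₁ ^ 2 + T₁ * T₂ + T₂ ^ 2 + C a * (T₁ + T₂) + C b) := by
    refine Kl.cancel hF h13 h12 ?_
    have := f1.sub f2
    rw [← hT₁, ← hT₂]
    convert this using 1
    ring
  have g13 : Kl X (T₁ ^ 2 + T₁ * T₃ + T₃ ^ 2 + C a * (T₁ + T₃) + C b) := by
    refine Kl.cancel hF h13 h13' ?_
    have := f1.sub f3
    rw [← hT₁, ← hT₃]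
    convert this using 1
    ring
  have g14 : Kl X (T₁ ^ 2 + T₁ * T₄ + T₄ ^ 2 + C a * (T₁ + T₄) + C b) := by
    refine Kl.cancel hF h13 h14 ?_
    have := f1.sub f4
    rw [← hT₁, ← hT₄]
    convert this using 1
    ring
  have g23 : Kl X (T₁ + T₂ + T₃ + C a) := by
    refine Kl.cancel hF h13 h23 ?_
    have := g12.sub g13
    rw [← hT₂, ← hT₃]
    convert this using 1
    ring
  have g24 : Kl X (T₁ + T₂ + T₄ + C a) := by
    refine Kl.cancel hF h13 h24 ?_
    have := g12.sub g14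
    rw [← hT₂, ← hT₄]
    convert this using 1
    ring
  have g34 : Kl X 1 := by
    refine Kl.cancel hF h13 h34 ?_
    have := g23.sub g24
    rw [← hT₃, ← hT₄]
    convert this using 1
    ring
  obtain ⟨v₀, hv₀, h0⟩ := exists_gen hF hV h13 h1
  have := g34 v₀ hv₀
  rw [map_one] at this
  exact h0 this

/-- the cubic polynomial -/
theorem exists_cubic (hF : Fintype.card F = 16) (hV : finrank F V = 4) (h13 : X ^ 13 = 1) (h1 : X ≠ 1) :
    ∃ a b c : F, Kl X (Polynomial.X ^ 3 + C a * Polynomial.X ^ 2 + C b * Polynomial.X + C c) := by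
  classical
  have hinv : ∀ v ∈ LinearMap.range (X - 1), X v ∈ LinearMap.range (X - 1) := by
    intro v hv
    have := aeval_mem (X := X) Polynomial.X hv
    rwa [aeval_X] at this
  let X₃ : Module.End F (LinearMap.range (X - 1)) := X.restrict hinv
  have hX₃ : ∀ (p : F[X]) (v : LinearMap.range (X - 1)), ((aeval X₃ p v : LinearMap.range (X - 1)) : V) = aeval X p v := by
    intro p
    induction p using Polynomial.induction_on' with
    | add p q hp hq =>
      intro v
      rw [map_add, map_add, LinearMap.add_apply, LinearMap.add_apply, Submodule.coe_add, hp, hq]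
    | monomial n c =>
      have hn : ∀ (n : ℕ) (v : LinearMap.range (X - 1)), (((X₃ ^ n) v : LinearMap.range (X - 1)) : V) = (X ^ n) v := by
        intro n
        induction n with
        | zero => intro v; rfl
        | succ n ih =>
          intro v
          rw [pow_succ, pow_succ]
          change (((X₃ ^ n) (X₃ v) : LinearMap.range (X - 1)) : V) = (X ^ n) (X v)
          rw [ih]
          rfl
      intro v
      rw [aeval_monomial, aeval_monomial]
      change c • (((X₃ ^ n) v : LinearMap.range (X - 1)) : V) = c • (X ^ n) (v : V)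
      rw [hn]
  have hm := X₃.charpoly_monic
  have hd : X₃.charpoly.natDegree = 3 := by rw [LinearMap.charpoly_natDegree, finrank_range hF hV h13 h1]
  have h2 := hm.as_sum
  rw [hd] at h2
  refine ⟨X₃.charpoly.coeff 2, X₃.charpoly.coeff 1, X₃.charpoly.coeff 0, fun v hv => ?_⟩
  have h3 := hX₃ X₃.charpoly ⟨v, hv⟩
  rw [LinearMap.aeval_self_charpoly] at h3
  have h4 : X₃.charpoly = Polynomial.X ^ 3 + C (X₃.charpoly.coeff 2) * Polynomial.X ^ 2 +
      C (X₃.charpoly.coeff 1) * Polynomial.X + C (X₃.charpoly.coeff 0) := by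
    conv_lhs => rw [h2]
    simp only [Finset.sum_range_succ, Finset.sum_range_zero, pow_zero, mul_one, pow_one, zero_add]
    ring
  rw [← h4]
  exact h3.symm

/-- conjugates which are powers -/
theorem Kl.conj (h13 : X ^ 13 = 1) (h1 : X ≠ 1) {Y Y' : Module.End F V} (hY : Y * Y' = 1) (hY' : Y' * Y = 1) {k : ℕ}
    (hk : Y * X * Y' = X ^ k) {a b c : F} (h : Kl X (Polynomial.X ^ 3 + C a * Polynomial.X ^ 2 + C b * Polynomial.X + C c)) :
    Kl X ((Polynomial.X ^ k) ^ 3 + C a * (Polynomial.X ^ k) ^ 2 + C b * (Polynomial.X ^ k) + C c) := by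
  have hXY : X * Y' = Y' * X ^ k := by
    rw [← hk]
    calc X * Y' = (Y' * Y) * X * Y' := by rw [hY', one_mul]
      _ = Y' * (Y * X * Y') := by noncomm_ring
  have hk0 : ¬ 13 ∣ k := by
    rintro ⟨m, rfl⟩
    rw [pow_mul, h13, one_pow] at hk
    apply h1
    calc X = (Y' * Y) * X * (Y' * Y) := by rw [hY', one_mul, mul_one]
      _ = Y' * (Y * X * Y') * Y := by noncomm_ring
      _ = 1 := by rw [hk, mul_one, hY']
  have hcop : Nat.Coprime k 13 := by
    rw [Nat.coprime_comm]
    exact (Nat.Prime.coprime_iff_not_dvd (by norm_num)).2 hk0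
  obtain ⟨m, -, hm⟩ := Nat.exists_mul_mod_eq_one_of_coprime hcop (by norm_num)
  have h3 : (X ^ k) ^ m = X := by
    rw [← pow_mul, ← Nat.div_add_mod (k * m) 13, hm, pow_add, pow_mul, h13, one_pow, one_mul, pow_one]
  have hmem : ∀ v ∈ LinearMap.range (X - 1), Y' v ∈ LinearMap.range (X - 1) := by
    rintro _ ⟨u, rfl⟩
    have h4 : X - 1 = (X ^ k - 1) * ∑ i ∈ Finset.range m, (X ^ k) ^ i := by
      rw [mul_geom_sum, h3]
    have h5 : Y' * (X ^ k - 1) = (X - 1) * Y' := by rw [mul_sub, sub_mul, mul_one, one_mul, hXY]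
    refine ⟨Y' ((∑ i ∈ Finset.range m, (X ^ k) ^ i) u), ?_⟩
    have h6 := LinearMap.congr_fun h5 ((∑ i ∈ Finset.range m, (X ^ k) ^ i) u)
    have h7 : Y' ((X - 1) u) = Y' ((X ^ k - 1) ((∑ i ∈ Finset.range m, (X ^ k) ^ i) u)) := by
      conv_lhs => rw [h4]
      rfl
    rw [h7]
    exact h6.symm
  intro v hv
  have h8 := h (Y' v) (hmem v hv)
  have e1 : aeval X ((Polynomial.X ^ k) ^ 3 + C a * (Polynomial.X ^ k) ^ 2 + C b * (Polynomial.X ^ k) + C c) =
      Y * aeval X (Polynomial.X ^ 3 + C a * Polynomial.X ^ 2 + C b * Polynomial.X + C c) * Y' := by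
    simp only [map_add, map_mul, map_pow, aeval_X, aeval_C]
    rw [← hk]
    have e2 : (Y * X * Y') ^ 3 = Y * X ^ 3 * Y' := by
      calc (Y * X * Y') ^ 3 = Y * X * (Y' * Y) * X * (Y' * Y) * X * Y' := by noncomm_ring
        _ = Y * X ^ 3 * Y' := by rw [hY', mul_one, mul_one]; noncomm_ring
    have e3 : (Y * X * Y') ^ 2 = Y * X ^ 2 * Y' := by
      calc (Y * X * Y') ^ 2 = Y * X * (Y' * Y) * X * Y' := by noncomm_ring
        _ = Y * X ^ 2 * Y' := by rw [hY', mul_one]; noncomm_ring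
    have e4 : ∀ (t : F) (Z : Module.End F V), Y * ((algebraMap F (Module.End F V)) t * Z) * Y' =
        (algebraMap F (Module.End F V)) t * (Y * Z * Y') := by
      intro t Z
      rw [← mul_assoc Y, ← Algebra.commutes t Y, mul_assoc, mul_assoc, ← mul_assoc Y]
    have e5 : Y * (algebraMap F (Module.End F V)) c * Y' = (algebraMap F (Module.End F V)) c := by
      rw [← Algebra.commutes c Y, mul_assoc, hY, mul_one]
    rw [e2, e3, mul_add, mul_add, mul_add, add_mul, add_mul, add_mul, e4, e4, e5]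
  rw [e1]
  change Y (aeval X _ (Y' v)) = 0
  rw [h8, map_zero]

end lin

end Cfsg.Agent.H279.Sq.UFour
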