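import Cfsg.Agent.H113.Cusp.Exc
import Cfsg.Agent.H279.Sq.FourLin

/-!
# The centralizer of an element of order 13 (helper279)

`card_N_le` : the normalizer of `⟨x⟩` is at most three times its centralizer;
`exists_tor` : the torus data of helper113 for the centralizer and a linear character of order 13.
-/

set_option autoImplicit false

open Module Polynomial Subgroup
open Cfsg.Agent.H113.Cusp.Exc

namespace Cfsg.Agent.H279.Sq.UFour

section grp

variable {F : Type*} [Field F] [Fintype F] {V : Type*} [AddCommGroup V] [Module F V] [Finite V]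
variable {G : Type*} [Group G] {x : G}

theorem X_pow (ρ : G →* Module.End F V) (hx : orderOf x = 13) : (ρ x) ^ 13 = 1 := by
  rw [← map_pow, ← hx, pow_orderOf_eq_one, map_one]

theorem X_ne (ρ : G →* Module.End F V) (hρ : Function.Injective ρ) (hx : orderOf x = 13) : ρ x ≠ 1 := by
  intro h
  have h1 : x = 1 := hρ (by rw [h, map_one])
  rw [h1, orderOf_one] at hx
  exact absurd hx (by norm_num)

theorem T_comm (hF : Fintype.card F = 16) (hV : finrank F V = 4) (ρ : G →* Module.End F V)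
    (hρ : Function.Injective ρ) (hx : orderOf x = 13) :
    ∀ a ∈ centralizer ({x} : Set G), ∀ b ∈ centralizer ({x} : Set G), a * b = b * a := by
  intro a ha b hb
  rw [mem_centralizer_singleton_iff] at ha hb
  apply hρ
  rw [map_mul, map_mul]
  exact comm hF hV (X_pow ρ hx) (X_ne ρ hρ hx) (by rw [← map_mul, ha, map_mul]) (by rw [← map_mul, hb, map_mul])

/-- four residues -/
theorem card_le_three {A : Finset ℕ} (h : ∀ a ∈ A, ∀ b ∈ A, ∀ c ∈ A, ∀ d ∈ A, a ≠ b → a ≠ c → a ≠ d → b ≠ c →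
    b ≠ d → c ≠ d → False) : A.card ≤ 3 := by
  classical
  by_contra hcon
  obtain ⟨B, hB, hc⟩ := Finset.exists_subset_card_eq (show 4 ≤ A.card by omega)
  obtain ⟨a, B', ha, rfl, hc'⟩ := Finset.card_eq_succ.1 hc
  obtain ⟨b, c, d, hbc, hbd, hcd, rfl⟩ := Finset.card_eq_three.1 hc'
  simp only [Finset.mem_insert, Finset.mem_singleton, not_or] at ha
  have hm : ∀ t, t = a ∨ t = b ∨ t = c ∨ t = d → t ∈ A := fun t ht => hB (by
    simp only [Finset.mem_insert, Finset.mem_singleton]; exact ht)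
  exact h a (hm a (Or.inl rfl)) b (hm b (Or.inr (Or.inl rfl))) c (hm c (Or.inr (Or.inr (Or.inl rfl)))) d
    (hm d (Or.inr (Or.inr (Or.inr rfl)))) ha.1 ha.2.1 ha.2.2 hbc hbd hcd

theorem card_N_le [Finite G] (hF : Fintype.card F = 16) (hV : finrank F V = 4) (ρ : G →* Module.End F V)
    (hρ : Function.Injective ρ) (hx : orderOf x = 13) :
    Nat.card (normalizer (zpowers x : Set G)) ≤ 3 * Nat.card (centralizer ({x} : Set G)) := by
  classical
  have := Fintype.ofFinite G
  set N := normalizer (zpowers x : Set G) with hN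
  set T := centralizer ({x} : Set G) with hT
  have hx13 : x ^ 13 = 1 := by rw [← hx, pow_orderOf_eq_one]
  have hex : ∀ g : N, ∃ k : ℕ, k < 13 ∧ (g : G) * x * (g : G)⁻¹ = x ^ k := by
    intro g
    have h1 : (g : G) * x * (g : G)⁻¹ ∈ zpowers x := ((mem_set_normalizer_iff.1 g.2) x).1 (mem_zpowers x)
    obtain ⟨k, hk⟩ := (mem_powers_iff_mem_zpowers (x := x)).2 h1
    refine ⟨k % 13, Nat.mod_lt _ (by norm_num), ?_⟩
    change x ^ k = _ at hk
    rw [← hk]
    conv_lhs => rw [← Nat.div_add_mod k 13, pow_add, pow_mul, hx13, one_pow, one_mul]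
  choose k hk13 hk using hex
  obtain ⟨a, b, c, hcub⟩ := exists_cubic hF hV (X_pow ρ hx) (X_ne ρ hρ hx)
  have hkl : ∀ g : N, Kl (ρ x) ((Polynomial.X ^ k g) ^ 3 + C a * (Polynomial.X ^ k g) ^ 2 + C b * (Polynomial.X ^ k g) + C c) := by
    intro g
    refine Kl.conj (Y := ρ (g : G)) (Y' := ρ (g : G)⁻¹) (X_pow ρ hx) (X_ne ρ hρ hx) ?_ ?_ ?_ hcub
    · rw [← map_mul, mul_inv_cancel, map_one]
    · rw [← map_mul, inv_mul_cancel, map_one]
    · rw [← map_mul, ← map_mul, hk, map_pow]
  have himg : (Finset.univ.image k).card ≤ 3 := by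
    apply card_le_three
    intro a₁ h₁ a₂ h₂ a₃ h₃ a₄ h₄ h12 h13 h14 h23 h24 h34
    obtain ⟨g₁, -, rfl⟩ := Finset.mem_image.1 h₁
    obtain ⟨g₂, -, rfl⟩ := Finset.mem_image.1 h₂
    obtain ⟨g₃, -, rfl⟩ := Finset.mem_image.1 h₃
    obtain ⟨g₄, -, rfl⟩ := Finset.mem_image.1 h₄
    have hne : ∀ {g h : N}, k g ≠ k h → ¬ k g ≡ k h [MOD 13] := by
      intro g h hgh hm
      apply hgh
      unfold Nat.ModEq at hm
      rwa [Nat.mod_eq_of_lt (hk13 g), Nat.mod_eq_of_lt (hk13 h)] at hm
    refine roots hF hV (X_pow ρ hx) (X_ne ρ hρ hx) (a := a) (b := b) (c := c) (hne h12) (hne h13) (hne h14) (hne h23)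
      (hne h24) (hne h34) ?_
    rintro _ (rfl | rfl | rfl | rfl)
    · exact hkl g₁
    · exact hkl g₂
    · exact hkl g₃
    · exact hkl g₄
  have hcard : (Finset.univ : Finset N).card ≤ Nat.card T * (Finset.univ.image k).card := by
    refine Finset.card_le_mul_card_image _ _ fun j hj => ?_
    obtain ⟨g₀, -, rfl⟩ := Finset.mem_image.1 hj
    rw [← Fintype.card_coe, ← Nat.card_eq_fintype_card]
    refine Nat.card_le_card_of_injective (fun g => (⟨(g₀ : G)⁻¹ * g.1, ?_⟩ : T)) ?_
    · rw [hT, mem_centralizer_singleton_iff]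
      have h1 : k g.1 = k g₀ := (Finset.mem_filter.1 g.2).2
      have h2 := hk g.1
      rw [h1, ← hk g₀] at h2
      have h3 : (g.1 : G) * x = (g₀ : G) * x * (g₀ : G)⁻¹ * g.1 := by rw [← h2]; group
      calc (g₀ : G)⁻¹ * g.1 * x = (g₀ : G)⁻¹ * ((g.1 : G) * x) := by group
        _ = x * ((g₀ : G)⁻¹ * g.1) := by rw [h3]; group
    · intro g h hgh
      have h1 : (g₀ : G)⁻¹ * g.1 = (g₀ : G)⁻¹ * h.1 := congrArg Subtype.val hgh
      exact Subtype.ext (Subtype.ext (mul_left_cancel h1))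
  rw [Finset.card_univ, ← Nat.card_eq_fintype_card] at hcard
  calc Nat.card N ≤ Nat.card T * (Finset.univ.image k).card := hcard
    _ ≤ Nat.card T * 3 := Nat.mul_le_mul_left _ himg
    _ = 3 * Nat.card T := mul_comm _ _

/-- elements of order 13 of the normalizer -/
theorem mem_zpowers_of_norm [Finite G] (hx : orderOf x = 13) (h169 : ¬ 13 ^ 2 ∣ Nat.card G) {s : G}
    (hs : s ^ 13 = 1) (hn : s ∈ normalizer (zpowers x : Set G)) : s ∈ zpowers x := by
  have : Fact (Nat.Prime 13) := ⟨by norm_num⟩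
  have hfac : (Nat.card G).factorization 13 = 1 := by
    have h1 : 1 ≤ (Nat.card G).factorization 13 := by
      rw [← Nat.Prime.pow_dvd_iff_le_factorization (by norm_num) Nat.card_pos.ne', pow_one, ← hx]
      exact orderOf_dvd_natCard x
    have h2 : ¬ 2 ≤ (Nat.card G).factorization 13 := by
      rwa [← Nat.Prime.pow_dvd_iff_le_factorization (by norm_num) Nat.card_pos.ne']
    omega
  let Q : Sylow 13 G := Sylow.ofCard (zpowers x) (by rw [Nat.card_zpowers, hx, hfac, pow_one])
  have hQ : (Q : Subgroup G) = zpowers x := rfl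
  have hP : IsPGroup 13 (zpowers s) := by
    rintro ⟨y, hy⟩
    obtain ⟨j, rfl⟩ := mem_zpowers_iff.1 hy
    refine ⟨1, Subtype.ext ?_⟩
    change (s ^ j) ^ 13 ^ 1 = 1
    rw [pow_one, ← zpow_natCast, ← zpow_mul, mul_comm, zpow_mul, zpow_natCast, hs, one_zpow]
  have h1 := hP.inf_normalizer_sylow Q
  have h2 : s ∈ zpowers s ⊓ normalizer (Q : Set G) := ⟨mem_zpowers s, hn⟩
  rw [h1] at h2
  exact h2.2

/-- **the torus data** -/
theorem exists_tor [Finite G] (hx : orderOf x = 13) (h169 : ¬ 13 ^ 2 ∣ Nat.card G)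
    (hcomm : ∀ a ∈ centralizer ({x} : Set G), ∀ b ∈ centralizer ({x} : Set G), a * b = b * a) :
    ∃ (B : Subgroup G) (h : Tor (centralizer ({x} : Set G)) (normalizer (zpowers x : Set G)) B)
      (θ : centralizer ({x} : Set G) →* ℂˣ),
      (∀ t ∈ centralizer ({x} : Set G), t ∉ B → ∃ j : ℕ, t ^ j ∈ zpowers x ∧ t ^ j ≠ 1) ∧
      (∀ t : centralizer ({x} : Set G), (t : G) ∈ B → θ t = 1) ∧ θ ≠ 1 ∧
      ∀ n : normalizer (zpowers x : Set G), h.cj n θ = θ → (n : G) ∈ centralizer ({x} : Set G) := by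
  classical
  have : Fact (Nat.Prime 13) := ⟨by norm_num⟩
  have hx13 : x ^ 13 = 1 := by rw [← hx, pow_orderOf_eq_one]
  have hx1 : x ≠ 1 := by
    rintro rfl
    rw [orderOf_one] at hx
    exact absurd hx (by norm_num)
  have hxT : x ∈ centralizer ({x} : Set G) := mem_centralizer_singleton_iff.2 rfl
  have hTN : centralizer ({x} : Set G) ≤ normalizer (zpowers x : Set G) := by
    intro g hg
    rw [mem_centralizer_singleton_iff] at hg
    rw [mem_set_normalizer_iff]
    intro n
    have h1 : ∀ n ∈ zpowers x, g * n * g⁻¹ = n := by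
      intro n hn
      obtain ⟨j, rfl⟩ := mem_zpowers_iff.1 hn
      have h2 : Commute g (x ^ j) := (show Commute g x from hg).zpow_right j
      rw [h2.eq, mul_inv_cancel_right]
    constructor
    · intro hn
      rw [h1 n hn]; exact hn
    · intro hn
      have h3 : g * n * g⁻¹ = n := by
        have h4 : ∀ n ∈ zpowers x, g⁻¹ * n * g = n := by
          intro n hn
          obtain ⟨j, rfl⟩ := mem_zpowers_iff.1 hn
          have h2 : Commute g⁻¹ (x ^ j) := ((show Commute g x from hg).zpow_right j).inv_left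
          rw [h2.eq, inv_mul_cancel_right]
        have h5 := h4 _ hn
        have h6 : g⁻¹ * (g * n * g⁻¹) * g = n := by group
        rw [h6] at h5
        exact h5.symm
      rw [h3] at hn
      exact hn
  obtain ⟨m, hm⟩ : 13 ∣ Nat.card (centralizer ({x} : Set G)) := by
    rw [← hx, ← orderOf_mk x hxT]
    exact orderOf_dvd_natCard _
  have hm13 : ¬ 13 ∣ m := by
    rintro ⟨l, rfl⟩
    apply h169
    refine Dvd.dvd.trans ⟨l, ?_⟩ (card_subgroup_dvd_card (centralizer ({x} : Set G)))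
    rw [hm]; ring
  -- the power `m`
  have hpow : ∀ t ∈ centralizer ({x} : Set G), t ^ m ∈ zpowers x := by
    intro t ht
    refine mem_zpowers_of_norm hx h169 ?_ (hTN (pow_mem ht m))
    rw [← pow_mul, mul_comm, ← hm]
    have h1 : (⟨t, ht⟩ : centralizer ({x} : Set G)) ^ Nat.card (centralizer ({x} : Set G)) = 1 := pow_card_eq_one'
    exact congrArg Subtype.val h1
  have hgen : ∀ s ∈ zpowers x, s ≠ 1 → zpowers s = zpowers x := by
    intro s hs hs1
    apply eq_of_le_of_card_ge (zpowers_le.2 hs)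
    have h1 : orderOf s ∣ 13 := by
      obtain ⟨j, rfl⟩ := mem_zpowers_iff.1 hs
      apply orderOf_dvd_of_pow_eq_one
      rw [← zpow_natCast, ← zpow_mul, mul_comm, zpow_mul, zpow_natCast, hx13, one_zpow]
    have h2 : orderOf s = 13 := ((Nat.dvd_prime (by norm_num)).1 h1).resolve_left fun h => hs1 (orderOf_eq_one_iff.1 h)
    rw [Nat.card_zpowers, Nat.card_zpowers, hx, h2]
  let B : Subgroup G :=
    { carrier := {t | t ∈ centralizer ({x} : Set G) ∧ t ^ m = 1}
      mul_mem' := by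
        rintro a b ⟨ha, ha'⟩ ⟨hb, hb'⟩
        refine ⟨mul_mem ha hb, ?_⟩
        rw [(show Commute a b from hcomm a ha b hb).mul_pow, ha', hb', one_mul]
      one_mem' := ⟨one_mem _, one_pow _⟩
      inv_mem' := by
        rintro a ⟨ha, ha'⟩
        exact ⟨inv_mem ha, by rw [inv_pow, ha', inv_one]⟩ }
  have hB : ∀ t, t ∈ B ↔ t ∈ centralizer ({x} : Set G) ∧ t ^ m = 1 := fun t => Iff.rfl
  have h : Tor (centralizer ({x} : Set G)) (normalizer (zpowers x : Set G)) B :=
    { le := hTN
      comm := hcomm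
      norm := by
        intro g hg t ht
        rw [mem_centralizer_singleton_iff] at ht ⊢
        have h1 : g⁻¹ * x * g ∈ zpowers x := by
          have := (mem_set_normalizer_iff.1 (inv_mem hg)) x
          rw [inv_inv] at this
          exact this.1 (mem_zpowers x)
        obtain ⟨j, hj⟩ := mem_zpowers_iff.1 h1
        have h2 : Commute t (g⁻¹ * x * g) := by
          rw [← hj]
          exact (show Commute t x from ht).zpow_right j
        have h3 := h2.eq
        calc g * t * g⁻¹ * x = g * (t * (g⁻¹ * x * g)) * g⁻¹ := by group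
          _ = x * (g * t * g⁻¹) := by rw [h3]; group
      fus := by
        intro t ht htB g hg
        have hs : t ^ m ≠ 1 := fun h => htB ((hB t).2 ⟨ht, h⟩)
        have h1 := hpow t ht
        have h2 := hgen _ h1 hs
        have h3 := hpow _ hg
        rw [conj_pow] at h3
        rw [mem_normalizer_iff_map_conj_eq]
        apply eq_of_le_of_card_ge
        · rintro _ ⟨n, hn, rfl⟩
          rw [SetLike.mem_coe, ← h2] at hn
          obtain ⟨j, rfl⟩ := mem_zpowers_iff.1 hn
          change g * (t ^ m) ^ j * g⁻¹ ∈ zpowers x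
          rw [← conj_zpow]
          exact zpow_mem h3 j
        · exact (Nat.card_congr ((zpowers x).equivMapOfInjective _ (MulAut.conj g).injective).toEquiv).le }
  let _ : CommGroup (centralizer ({x} : Set G)) :=
    { (inferInstance : Group (centralizer ({x} : Set G))) with
      mul_comm := fun a b => Subtype.ext (hcomm a a.2 b b.2) }
  have hxm : (⟨x, hxT⟩ : centralizer ({x} : Set G)) ^ m ≠ 1 := by
    intro h1
    have h2 : x ^ m = 1 := congrArg Subtype.val h1
    have h3 := orderOf_dvd_of_pow_eq_one h2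
    rw [hx] at h3
    exact hm13 h3
  obtain ⟨φ, hφ⟩ := CommGroup.exists_apply_ne_one_of_hasEnoughRootsOfUnity (centralizer ({x} : Set G)) ℂ hxm
  have hθ : ∀ t, (φ ^ m) t = φ (t ^ m) := fun t => by rw [map_pow]; rfl
  refine ⟨B, h, φ ^ m, ?_, ?_, ?_, ?_⟩
  · intro t ht htB
    exact ⟨m, hpow t ht, fun h1 => htB ((hB t).2 ⟨ht, h1⟩)⟩
  · intro t ht
    rw [hθ]
    have h1 : t ^ m = 1 := Subtype.ext ((hB t).1 ht).2
    rw [h1, map_one]
  · intro h1
    apply hφ
    rw [← hθ, h1]; rfl
  · intro n hn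
    have h1 := DFunLike.congr_fun hn ⟨x, hxT⟩
    rw [h.cj_apply] at h1
    have h2 : (n : G)⁻¹ * x * n ∈ zpowers x := by
      have := (mem_set_normalizer_iff.1 (inv_mem n.2)) x
      rw [inv_inv] at this
      exact this.1 (mem_zpowers x)
    obtain ⟨k, hk⟩ := (mem_powers_iff_mem_zpowers (x := x)).2 h2
    change x ^ k = _ at hk
    have h3 : (⟨(n : G)⁻¹ * x * n, h.norm' n.2 hxT⟩ : centralizer ({x} : Set G)) = ⟨x, hxT⟩ ^ k := Subtype.ext hk.symm
    rw [h3, map_pow] at h1
    -- the value at `x`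
    have h4 : ((φ ^ m) ⟨x, hxT⟩) ^ 13 = 1 := by
      have h5 : (⟨x, hxT⟩ : centralizer ({x} : Set G)) ^ 13 = 1 := Subtype.ext hx13
      rw [← map_pow, h5, map_one]
    have h5 : (φ ^ m) ⟨x, hxT⟩ ≠ 1 := by rw [hθ]; exact hφ
    have h6 : orderOf ((φ ^ m) ⟨x, hxT⟩) = 13 := by
      have := orderOf_dvd_of_pow_eq_one h4
      exact ((Nat.dvd_prime (by norm_num)).1 this).resolve_left fun h => h5 (orderOf_eq_one_iff.1 h)
    have h7 : ((φ ^ m) ⟨x, hxT⟩) ^ k = ((φ ^ m) ⟨x, hxT⟩) ^ 1 := by rw [h1, pow_one]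
    rw [pow_eq_pow_iff_modEq, h6, ← hx, ← pow_eq_pow_iff_modEq, pow_one] at h7
    rw [mem_centralizer_singleton_iff]
    rw [h7] at hk
    calc (n : G) * x = (n : G) * ((n : G)⁻¹ * x * n) := by rw [← hk]
      _ = x * n := by group

end grp

end Cfsg.Agent.H279.Sq.UFour
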