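import Cfsg.Agent.H979.LieSplit
import Cfsg.Agent.H163.Steinberg
import Cfsg.Agent.H33.IM
import Cfsg.Prelude.Def_LieTypeChar

/-!
# S4844: the defining characteristic (helper279)

`sq_own` : the Steinberg character.
-/

set_option autoImplicit false

namespace Cfsg.Agent.H279.Sq

open Cfsg

universe u

/-- **The Steinberg character.** -/
theorem sq_own {S : Type u} [Group S] [Finite S] [IsSimpleGroup S] {p k : ℕ} (hp : p.Prime) (h : IsLieTypeChar p S)
    (hd : p ^ k ∣ Nat.card S) : H33.IM (p ^ k) S := by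
  have : Fact p.Prime := ⟨hp⟩
  obtain ⟨χ, hχ, h1⟩ := H163.Steinberg.exists_irr_of_hasSplit (H979.LieSplit.hasSplit_of_isLieTypeChar hp h)
  have Q : Sylow p S := default
  refine H33.IM.of_apply_one hχ (h1 Q).1 ?_
  rw [Q.card_eq_multiplicity]
  exact pow_dvd_pow p ((hp.pow_dvd_iff_le_factorization Nat.card_pos.ne').1 hd)

end Cfsg.Agent.H279.Sq
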