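import Cfsg.Agent.H279.Sq.Arith

/-!
# S4844: `PSU_7(q)`, `p ∣ q ^ 2 - q + 1` (helper279)

The Harish-Chandra character from `GL_2(q²) × GU_3(q)`, a cuspidal character of the first factor and a principal
series character of degree `q ^ 3 + 1` of the second one.
Also `PSU_3(q)`, `p ∣ q ^ 2 - q + 1` : the principal series character of degree `q ^ 3 + 1`.
-/

set_option autoImplicit false

open Cfsg

namespace Cfsg.Agent.H279.Sq

open Cfsg.Agent.Characters MulAction Module Cfsg.Agent.H53.HC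
open Cfsg.Agent.H477.HC Cfsg.Agent.H477.HC.CForm Cfsg.Agent.H749.Two Cfsg.Agent.H113.Two.HcOne
open Cfsg.Agent.H113.Two.SplitForm Cfsg.Agent.H113.Two.HermData Cfsg.Agent.H113.Two.Descent2
open Cfsg.Agent.H113.PSU.Descent Cfsg.Agent.H113.PSU.Levi Cfsg.Agent.H113.Two.PsuChars
open Cfsg.Agent.H113.PSU.Facts (hasCusU succ_dvd_uu)
open Cfsg.Agent.H519.Dl (dg_mul)

universe u

variable {F : Type u} [Field F] [Fintype F] {q p : ℕ}

/-- a character of `F*`, trivial on the elements of order dividing `n` and `q + 1`, not trivial on the norms -/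
theorem exists_theta_n (hq : Nat.card F = q ^ 2) (h3 : 3 ≤ q) {n : ℕ} (hn : Nat.Coprime 4 n) : ∃ θ : Fˣ →* ℂˣ,
    (∀ a ∈ mu F q, a ^ n = 1 → θ a = 1) ∧ ∃ z : Fˣ, θ (z * Units.map (powHom hq : F →* F) z) ≠ 1 := by
  rcases Nat.lt_or_ge q 4 with h4 | h4
  · have h5 : q = 3 := by omega
    subst h5
    obtain ⟨θ, hθ⟩ := exists_theta3 hq le_rfl
    refine ⟨θ, fun a ha ha' => ?_, hθ⟩
    rw [mem_mu] at ha
    have h6 : orderOf a ∣ Nat.gcd 4 n := Nat.dvd_gcd (orderOf_dvd_of_pow_eq_one ha) (orderOf_dvd_of_pow_eq_one ha')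
    rw [hn, Nat.dvd_one, orderOf_eq_one_iff] at h6
    rw [h6, map_one]
  · obtain ⟨θ, h1, h2⟩ := exists_theta hq h4 (1 : mu F q →* ℂˣ)
    refine ⟨θ, fun a ha _ => ?_, h2⟩
    have := h1 a ha
    rwa [MonoidHom.one_apply, mul_one] at this

/-- the number of isotropic points -/
theorem card_Om_three (hF : Fintype.card F = q ^ 2) (hq : Nat.card F = q ^ 2) :
    Nat.card ((hermF F hq 3).Om 1) = uu q 3 := by
  have hq2 := LieClassical.HermBasic.two_le hF
  have h1 := dg_mul hF hq (n := 3) (k := 1) (by omega) (by omega)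
  unfold dg at h1
  rw [Finset.Ico_self, Finset.prod_empty, mul_one] at h1
  simp only [Finset.prod_range_succ, Finset.prod_range_zero, one_mul, mul_one] at h1
  have h2 : 0 < uu q 2 := uu_pos hq2 (by omega)
  apply Nat.eq_of_mul_eq_mul_right h2
  rw [h1]
  norm_num
  ring

/-- **`PSU_3(q)`, `p ∣ q ^ 2 - q + 1`** -/
theorem case_three (hF : Fintype.card F = q ^ 2) (h3 : 3 ≤ q) {r : ℕ} (hr : Nat.Coprime r (q + 1))
    (hr3 : r ∣ uu q 3) : H33.IM r (PSU 3 F q) := by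
  have hq : Nat.card F = q ^ 2 := by rw [Nat.card_eq_fintype_card, hF]
  obtain ⟨θ, hθ1, hθ⟩ := exists_theta_n hq h3 (n := 3) (by decide)
  obtain ⟨φ, t, h1, h2, h4, -⟩ := exOne hF hq (n := 3) (l := 1) le_rfl rfl hθ hθ1
  rw [card_Om_three hF hq] at h1
  refine ⟨φ, ?_⟩
  rw [← h1] at hr3
  exact (Nat.Coprime.coprime_dvd_right h4 hr).dvd_of_dvd_mul_right hr3

/-- **`PSU_7(q)`, `p ∣ q ^ 2 - q + 1`** -/
theorem case_seven (hF : Fintype.card F = q ^ 2) (hp : p.Prime) (h3 : p ∣ uu q 3) (h2 : ¬ p ∣ uu q 2) :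
    H33.IM (p ^ 2) (PSU 7 F q) := by
  have hq : Nat.card F = q ^ 2 := by rw [Nat.card_eq_fintype_card, hF]
  have hq2 := LieClassical.HermBasic.two_le hF
  have hp1 : ¬ p ∣ q + 1 := fun h => h2 (h.trans (succ_dvd_uu (by omega) 2))
  have hq3 : 3 ≤ q := by
    by_contra h4
    have h5 : q = 2 := by omega
    subst h5
    have h6 : uu 2 3 = 3 * 3 := by unfold uu; norm_num
    rw [h6, hp.dvd_mul] at h3
    have h7 : p ∣ 3 := h3.elim id id
    exact hp1 h7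
  obtain ⟨θ, hθ1, hθ⟩ := exists_theta_n hq hq3 (n := 7) (by decide)
  obtain ⟨c, hc⟩ := hasCusU F q hq 2 le_rfl
  obtain ⟨W₀, hW₀, hcmp⟩ := hermF_cmp F hq 2 (1 + (1 + 1))
  obtain ⟨W₁, hW₁, -⟩ := hermF_cmp F hq 1 1
  have hW : ∀ W' ∈ (hermF F hq (2 + (2 + (1 + (1 + 1))))).Om 2,
      W₀ ≤ (hermF F hq (2 + (2 + (1 + (1 + 1))))).perp W' → W₀ ⊓ W' = ⊥ → False :=
    no_disj (m := 3) (fun W hW => by
      have := two_finrank_le hW
      rw [finrank_fin_fun] at this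
      omega) (by omega) hW₀
  obtain ⟨ψ₀, hψ₀, hψ1, hψz⟩ := exists_one hW₁ (θ := θ) hθ
  obtain ⟨χ, hχ, hχ1, hχz⟩ := exists_hc hcmp hc hW₀ hψ₀ hW
  obtain ⟨ψ, t, h1, h4, h5, -⟩ := to_psu (n := 7) (d := dg (hermF F hq 7) 2 * Nat.card ((hermF F hq 3).Om 1)) hF hq
    (by omega) hχ
    (by rw [hχ1, hψ1]; push_cast; ring) fun z a ha ha7 hz => hχz z a hz fun z' hz' => by
      rw [hc.scal a ha, hψz z' a hz' (hθ1 a ha ha7)]
  refine ⟨ψ, ?_⟩
  have h6 : p ^ 2 ∣ charDegree (ψ : PSU 7 F q → ℂ) * t := by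
    rw [h1, card_Om_three hF hq]
    have h7 := dg_mul hF hq (n := 7) (k := 2) (by omega) (by omega)
    have h8 : dg (hermF F hq 7) 2 = uu q 5 * uu q 6 * uu q 7 := by
      have h9 : 0 < uu q 4 := uu_pos hq2 (by omega)
      apply Nat.eq_of_mul_eq_mul_right h9
      have h10 : ∏ i ∈ Finset.range (2 * 2), uu q (7 - 2 * 2 + i + 1) = uu q 4 * uu q 5 * uu q 6 * uu q 7 := by
        simp [Finset.prod_range_succ]
      rw [h10] at h7
      rw [show 2 * 2 = 4 by norm_num] at h7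
      rw [h7]
      ring
    rw [h8, pow_two]
    have h9 : p ∣ uu q 6 := dvd_two_mul (i := 3) (by omega) h3
    exact Nat.mul_dvd_mul ((h9.mul_left _).mul_right _) h3
  exact sq_dvd_of_mul' hp (fun h => hp1 (h.trans h5)) h6

end Cfsg.Agent.H279.Sq
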